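import Mathlib

/-!
# S5916 (`i = 1`): from a representation of `SL₂(16)` with a logarithm vector to the relations over `F₂` (helper248)
-/

set_option autoImplicit false

namespace Cfsg.Agent.H248.L16

open Matrix Finset

local notation "SL2" F => Matrix.SpecialLinearGroup (Fin 2) F

/-- the base vectors of the circle of `y₀ = !![0, 1; 1, w]` (helper701) -/
def ob {F : Type*} [Field F] (w : F) : ℕ → F × F
  | 0 => (w ^ 8, 0)
  | k + 1 => ((ob w k).2, (ob w k).1 + w * (ob w k).2)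

/-- the symplectic form -/
def wf {F : Type*} [Field F] (u v : F × F) : F := u.1 * v.2 + u.2 * v.1

section

variable {F : Type} [Field F]

/-- `y₀` -/
def y0 [CharP F 2] (w : F) : SL2 F := ⟨!![0, 1; 1, w], by
  rw [Matrix.det_fin_two_of]
  have h2 : (1 : F) + 1 = 0 := CharTwo.add_self_eq_zero 1
  linear_combination -h2⟩

/-- `t_{v₀₀}` -/
def t00 (w : F) : SL2 F := ⟨!![1, w; 0, 1], by rw [Matrix.det_fin_two_of]; ring⟩

/-- the image of a vector -/
def act (s : SL2 F) (v : F × F) : F × F := (s.1 0 0 * v.1 + s.1 0 1 * v.2, s.1 1 0 * v.1 + s.1 1 1 * v.2)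

theorem act_mul (s t : SL2 F) (v : F × F) : act (s * t) v = act s (act t v) := by
  simp only [act, Matrix.SpecialLinearGroup.coe_mul, Matrix.mul_apply, Fin.sum_univ_two]
  refine Prod.ext ?_ ?_ <;> simp only <;> ring

theorem act_one (v : F × F) : act (1 : SL2 F) v = v := by
  simp [act]

theorem act_y0 [CharP F 2] (w : F) (v : F × F) : act (y0 w) v = (v.2, v.1 + w * v.2) := by
  simp [act, y0]

theorem ob_eq [CharP F 2] (w : F) (k : ℕ) : ob w k = act (y0 w ^ k) (w ^ 8, 0) := by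
  induction k with
  | zero => rw [pow_zero, act_one]; rfl
  | succ k ih => rw [pow_succ', act_mul, ← ih, act_y0]; rfl

/-- the form is invariant -/
theorem wf_act [CharP F 2] (s : SL2 F) (u v : F × F) : wf (act s u) (act s v) = wf u v := by
  have h2 : (1 : F) + 1 = 0 := CharTwo.add_self_eq_zero 1
  have hd : s.1 0 0 * s.1 1 1 - s.1 0 1 * s.1 1 0 = 1 := by
    rw [← Matrix.det_fin_two]; exact s.2
  simp only [wf, act]
  linear_combination (u.1 * v.2 + u.2 * v.1) * hd + (u.1 * v.1 * s.1 0 0 * s.1 1 0 + u.2 * v.2 * s.1 0 1 * s.1 1 1 +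
    (u.1 * v.2 + u.2 * v.1) * s.1 0 1 * s.1 1 0) * h2

theorem det_eq (s : SL2 F) : s.1 0 0 * s.1 1 1 - s.1 0 1 * s.1 1 0 = 1 := by
  rw [← Matrix.det_fin_two]; exact s.2

/-- the trace of an element commuting with `y₀` -/
theorem tr_of_comm [CharP F 2] {w : F} {s : SL2 F} (h : s * y0 w = y0 w * s) : Matrix.trace s.1 = w * s.1 1 0 := by
  have h2 : (1 : F) + 1 = 0 := CharTwo.add_self_eq_zero 1
  have h' : s.1 * !![0, 1; 1, w] = !![0, 1; 1, w] * s.1 := congrArg Subtype.val h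
  have h1 : s.1 0 1 = s.1 1 0 := by
    have := congrFun (congrFun h' 0) 0
    simpa [Matrix.mul_apply, Fin.sum_univ_two] using this
  have h3 : s.1 0 0 + s.1 0 1 * w = s.1 1 1 := by
    have := congrFun (congrFun h' 0) 1
    simpa [Matrix.mul_apply, Fin.sum_univ_two] using this
  rw [Matrix.trace_fin_two]
  linear_combination h3 - w * h1 + s.1 1 1 * h2 - w * s.1 1 0 * h2

theorem comm_zpow [CharP F 2] (w : F) (i j : ℕ) :
    (y0 w ^ i * (y0 w ^ j)⁻¹) * y0 w = y0 w * (y0 w ^ i * (y0 w ^ j)⁻¹) := by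
  have h : Commute (y0 w ^ i * (y0 w ^ j)⁻¹) (y0 w) :=
    ((Commute.refl (y0 w)).pow_left i).mul_left (((Commute.refl (y0 w)).pow_left j).inv_left)
  exact h.eq

/-- the form on the circle is the trace -/
theorem wf_ob [Fintype F] [CharP F 2] (hF : Fintype.card F = 16) (w : F) (i j : ℕ) :
    wf (ob w i) (ob w j) = Matrix.trace (y0 w ^ i * (y0 w ^ j)⁻¹).1 := by
  have hw : w ^ 16 = w := by rw [← hF]; exact FiniteField.pow_card w
  rw [ob_eq, ob_eq, tr_of_comm (comm_zpow w i j)]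
  have h : y0 w ^ i = y0 w ^ j * (y0 w ^ i * (y0 w ^ j)⁻¹) := by
    have h : Commute (y0 w ^ i) (y0 w ^ j) := ((Commute.refl (y0 w)).pow_left i).pow_right j
    rw [← mul_assoc, ← h.eq, mul_assoc, mul_inv_cancel, mul_one]
  have h3 : act (y0 w ^ i) (w ^ 8, 0) = act (y0 w ^ j) (act (y0 w ^ i * (y0 w ^ j)⁻¹) (w ^ 8, 0)) := by
    rw [← act_mul, ← h]
  rw [h3, wf_act]
  simp only [wf, act]
  linear_combination (y0 w ^ i * (y0 w ^ j)⁻¹).1 1 0 * hw

/-- the stabiliser of the base vector -/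
theorem comm_of_fix {w : F} (hw : w ≠ 0) {s : SL2 F} (h : act s (w ^ 8, 0) = (w ^ 8, 0)) :
    s * t00 w = t00 w * s := by
  have h8 : w ^ 8 ≠ 0 := pow_ne_zero 8 hw
  have h1 : s.1 0 0 = 1 := by
    have := congrArg Prod.fst h
    simp only [act, mul_zero, add_zero] at this
    exact mul_right_cancel₀ h8 (by rw [one_mul]; exact this)
  have h2 : s.1 1 0 = 0 := by
    have := congrArg Prod.snd h
    simp only [act, mul_zero, add_zero] at this
    rcases mul_eq_zero.1 this with h | h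
    · exact h
    · exact absurd h h8
  have h3 : s.1 1 1 = 1 := by
    have := det_eq s
    rw [h1, h2, one_mul, mul_zero, sub_zero] at this
    exact this
  apply Subtype.ext
  change s.1 * !![1, w; 0, 1] = !![1, w; 0, 1] * s.1
  have hs : s.1 = !![1, s.1 0 1; 0, 1] := by
    ext i j
    fin_cases i <;> fin_cases j
    · exact h1
    · rfl
    · exact h2
    · exact h3
  rw [hs]
  ext i j
  fin_cases i <;> fin_cases j <;> simp [Matrix.mul_apply, Fin.sum_univ_two, add_comm]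

/-- transitivity on nonzero vectors -/
theorem exists_act [CharP F 2] {w : F} (hw : w ≠ 0) {v : F × F} (hv : v ≠ 0) : ∃ s : SL2 F, act s (w ^ 8, 0) = v := by
  have h8 : w ^ 8 ≠ 0 := pow_ne_zero 8 hw
  have h2 : (1 : F) + 1 = 0 := CharTwo.add_self_eq_zero 1
  by_cases h1 : v.1 = 0
  · have h3 : v.2 ≠ 0 := fun h => hv (Prod.ext h1 h)
    refine ⟨⟨!![0, w ^ 8 * v.2⁻¹; (w ^ 8)⁻¹ * v.2, 0], ?_⟩, ?_⟩
    · rw [Matrix.det_fin_two_of]
      field_simp
      linear_combination -h2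
    · refine Prod.ext ?_ ?_
      · simp [act, h1]
      · simp [act]
        field_simp
  · refine ⟨⟨!![(w ^ 8)⁻¹ * v.1, 0; (w ^ 8)⁻¹ * v.2, w ^ 8 * v.1⁻¹], ?_⟩, ?_⟩
    · rw [Matrix.det_fin_two_of]
      field_simp
      ring
    · refine Prod.ext ?_ ?_
      · simp [act]
        field_simp
      · simp [act]
        field_simp

theorem act_ne_zero {s : SL2 F} {v : F × F} (hv : v ≠ 0) : act s v ≠ 0 := by
  intro h
  apply hv
  rw [← act_one v, ← inv_mul_cancel s, act_mul, h]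
  simp [act]

/-! ### the relations, standard position -/

section

variable {K L : Type*} [Field K] [AddCommGroup L] [Module K L]

/-- the vectors `c v` from the logarithm `c₀` of `t_{v₀₀}` -/
theorem exists_c [CharP F 2] {w : F} (hw : w ≠ 0) (ρ : Representation K (SL2 F) L) (c0 : L)
    (H1 : ∀ s, s * t00 w = t00 w * s → ρ s c0 = c0) :
    ∃ c : F → F → L, c 0 0 = 0 ∧ ∀ s : SL2 F, c (act s (w ^ 8, 0)).1 (act s (w ^ 8, 0)).2 = ρ s c0 := by
  classical
  have hv : ((w ^ 8, 0) : F × F) ≠ 0 := by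
    intro h
    exact pow_ne_zero 8 hw (congrArg Prod.fst h)
  choose g hg using fun (v : F × F) (h : v ≠ 0) => exists_act hw h
  refine ⟨fun x y => if h : ((x, y) : F × F) ≠ 0 then ρ (g (x, y) h) c0 else 0, ?_, ?_⟩
  · simp
  · intro s
    have h0 : act s (w ^ 8, 0) ≠ 0 := act_ne_zero hv
    have h1 : (((act s (w ^ 8, 0)).1, (act s (w ^ 8, 0)).2) : F × F) ≠ 0 := h0
    simp only [dif_pos h1]
    have h2 : act (g _ h1) (w ^ 8, 0) = act s (w ^ 8, 0) := hg _ h1
    have h3 : act ((g _ h1)⁻¹ * s) (w ^ 8, 0) = (w ^ 8, 0) :=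
      calc act ((g _ h1)⁻¹ * s) (w ^ 8, 0) = act (g _ h1)⁻¹ (act s (w ^ 8, 0)) := act_mul _ _ _
        _ = act (g _ h1)⁻¹ (act (g _ h1) (w ^ 8, 0)) := congrArg _ h2.symm
        _ = (w ^ 8, 0) := by rw [← act_mul, inv_mul_cancel, act_one]
    have h4 := H1 _ (comm_of_fix hw h3)
    calc ρ (g _ h1) c0 = ρ (g _ h1) (ρ ((g _ h1)⁻¹ * s) c0) := by rw [h4]
      _ = ρ s c0 := by
        rw [← Module.End.mul_apply, ← map_mul, mul_inv_cancel_left]

/-- the matrix of helper701 -/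
def mk [CharP F 2] {al be ga de : F} (h : al * de + be * ga = 1) : SL2 F := ⟨!![al, be; ga, de], by
  have h2 : (1 : F) + 1 = 0 := CharTwo.add_self_eq_zero 1
  rw [Matrix.det_fin_two_of]
  linear_combination h - be * ga * h2⟩

theorem act_mk [CharP F 2] {al be ga de : F} (h : al * de + be * ga = 1) (v : F × F) :
    act (mk h) v = (al * v.1 + be * v.2, ga * v.1 + de * v.2) := by
  simp [act, mk]

theorem wf_comm (u v : F × F) : wf u v = wf v u := by
  simp only [wf]; ring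

variable {w : F} {ρ : Representation K (SL2 F) L} {c0 : L} {c : F → F → L}

theorem c_ob [CharP F 2] (hc : ∀ s : SL2 F, c (act s (w ^ 8, 0)).1 (act s (w ^ 8, 0)).2 = ρ s c0) (s : SL2 F) (k : ℕ) :
    c (act s (ob w k)).1 (act s (ob w k)).2 = ρ s (ρ (y0 w ^ k) c0) := by
  rw [ob_eq, ← act_mul, hc, map_mul, Module.End.mul_apply]

/-- (R3) -/
theorem rel3 [Fintype F] [CharP F 2] (hF : Fintype.card F = 16)
    (hc : ∀ s : SL2 F, c (act s (w ^ 8, 0)).1 (act s (w ^ 8, 0)).2 = ρ s c0) (R : F → Prop) [DecidablePred R]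
    (H3 : ∑ k ∈ range 17, (if R (Matrix.trace (y0 w ^ k).1) then ρ (y0 w ^ k) c0 else 0) = 0) (s : SL2 F) :
    ∑ k ∈ range 17, (if R (wf (ob w 0) (ob w k)) then c (act s (ob w k)).1 (act s (ob w k)).2 else 0) = 0 := by
  have h : ∀ k, wf (ob w 0) (ob w k) = Matrix.trace (y0 w ^ k).1 := by
    intro k
    rw [wf_comm, wf_ob hF, pow_zero, inv_one, mul_one]
  have h5 := congrArg (ρ s) H3
  rw [map_zero, map_sum] at h5
  refine Eq.trans (Finset.sum_congr rfl fun k _ => ?_) h5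
  rw [h]
  split_ifs with h1
  · exact c_ob hc s k
  · rw [map_zero]

/-- the sum over the circle -/
theorem sum_ob [CharP F 2] (hc : ∀ s : SL2 F, c (act s (w ^ 8, 0)).1 (act s (w ^ 8, 0)).2 = ρ s c0) (s : SL2 F) :
    ∑ k ∈ range 17, c (act s (ob w k)).1 (act s (ob w k)).2 = ρ s (∑ k ∈ range 17, ρ (y0 w ^ k) c0) := by
  rw [map_sum]
  exact Finset.sum_congr rfl fun k _ => c_ob hc s k

/-- (R2) -/
theorem rel2 [Fintype F] [CharP F 2] (hF : Fintype.card F = 16)
    (hc : ∀ s : SL2 F, c (act s (w ^ 8, 0)).1 (act s (w ^ 8, 0)).2 = ρ s c0) (br : L → L → L)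
    (hρ : ∀ s u v, ρ s (br u v) = br (ρ s u) (ρ s v))
    (H4 : ∃ Z : F →+ L, Z 1 = ∑ k ∈ range 17, ρ (y0 w ^ k) c0 ∧ ∀ k < 17, ∀ l < 17,
      br (ρ (y0 w ^ k) c0) (ρ (y0 w ^ l) c0) = Z ((Matrix.trace (y0 w ^ k * (y0 w ^ l)⁻¹).1) ^ 2)) (s : SL2 F) :
    ∃ Z : F →+ L, Z 1 = ∑ k ∈ range 17, c (act s (ob w k)).1 (act s (ob w k)).2 ∧ ∀ i < 17, ∀ j < 17,
      br (c (act s (ob w i)).1 (act s (ob w i)).2) (c (act s (ob w j)).1 (act s (ob w j)).2) =
        Z ((wf (ob w i) (ob w j)) ^ 2) := by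
  obtain ⟨Z, hZ1, hZ⟩ := H4
  refine ⟨(ρ s).toAddMonoidHom.comp Z, ?_, ?_⟩
  · rw [sum_ob hc, ← hZ1]
    rfl
  · intro i hi j hj
    rw [c_ob hc, c_ob hc, ← hρ, hZ i hi j hj, wf_ob hF]
    rfl

/-- (R1) -/
theorem rel1 [CharP F 2] (hw : w ≠ 0) (c00 : c 0 0 = 0)
    (hc : ∀ s : SL2 F, c (act s (w ^ 8, 0)).1 (act s (w ^ 8, 0)).2 = ρ s c0) (br : L → L → L)
    (hρ : ∀ s u v, ρ s (br u v) = br (ρ s u) (ρ s v)) (hb : ∀ u, br u 0 = 0)
    (H2 : ∀ s, s * t00 w * s⁻¹ * t00 w = t00 w * (s * t00 w * s⁻¹) → br c0 (ρ s c0) = 0) (x y l : F) :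
    br (c x y) (c (l * x) (l * y)) = 0 := by
  by_cases hv : ((x, y) : F × F) = 0
  · have h1 : x = 0 := congrArg Prod.fst hv
    have h2 : y = 0 := congrArg Prod.snd hv
    rw [h1, h2, mul_zero, c00, hb]
  by_cases hl : l = 0
  · rw [hl, zero_mul, zero_mul, c00, hb]
  obtain ⟨s, hs⟩ := exists_act hw hv
  let d : SL2 F := ⟨!![l, 0; 0, l⁻¹], by rw [Matrix.det_fin_two_of, mul_zero, sub_zero, mul_inv_cancel₀ hl]⟩
  have hd : act (s * d) (w ^ 8, 0) = (l * x, l * y) := by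
    rw [act_mul]
    have h1 : act d (w ^ 8, 0) = (l * w ^ 8, 0) := by simp [act, d]
    rw [h1]
    have h2 := congrArg Prod.fst hs
    have h3 := congrArg Prod.snd hs
    simp only [act] at h2 h3 ⊢
    refine Prod.ext ?_ ?_
    · simp only
      linear_combination l * h2
    · simp only
      linear_combination l * h3
  have h1 := hc s
  rw [hs] at h1
  have h2 := hc (s * d)
  rw [hd] at h2
  simp only at h1 h2
  rw [h1, h2, map_mul, Module.End.mul_apply, ← hρ, H2, map_zero]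
  have hdi : d⁻¹ = ⟨!![l⁻¹, 0; 0, l], by rw [Matrix.det_fin_two_of, mul_zero, sub_zero, inv_mul_cancel₀ hl]⟩ := by
    apply Subtype.ext
    rw [Matrix.SpecialLinearGroup.coe_inv, Matrix.adjugate_fin_two_of]
    simp
  have hdt : d * t00 w * d⁻¹ = ⟨!![1, l ^ 2 * w; 0, 1], by rw [Matrix.det_fin_two_of]; ring⟩ := by
    rw [hdi]
    apply Subtype.ext
    change !![l, 0; 0, l⁻¹] * !![1, w; 0, 1] * !![l⁻¹, 0; 0, l] = !![1, l ^ 2 * w; 0, 1]
    ext i j
    fin_cases i <;> fin_cases j <;> simp [Matrix.mul_apply, Fin.sum_univ_two, hl]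
    ring
  rw [hdt]
  apply Subtype.ext
  change !![1, l ^ 2 * w; 0, 1] * !![1, w; 0, 1] = !![1, w; 0, 1] * !![1, l ^ 2 * w; 0, 1]
  ext i j
  fin_cases i <;> fin_cases j <;> simp [Matrix.mul_apply, Fin.sum_univ_two, add_comm]

end

end

end Cfsg.Agent.H248.L16
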