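import Cfsg.Agent.H248.L16.Conj
import Cfsg.Agent.H701.L16.Uni
import Cfsg.Agent.H952.L16.UniN

/-!
# S5916 (`i = 1`): BRIDGE (helper248)
-/

set_option autoImplicit false

namespace Cfsg.Agent.H248.L16

open Matrix Finset

local notation "SL2" F => Matrix.SpecialLinearGroup (Fin 2) F

variable {F : Type} [Field F]

theorem ob_701 (w : F) (k : ℕ) : Cfsg.Agent.H701.L16.ob w k = ob w k := by
  induction k with
  | zero => rfl
  | succ k ih =>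
    change ((Cfsg.Agent.H701.L16.ob w k).2, (Cfsg.Agent.H701.L16.ob w k).1 + w * (Cfsg.Agent.H701.L16.ob w k).2) = _
    rw [ih]
    rfl

theorem wf_701 (u v : F × F) : Cfsg.Agent.H701.L16.wf u v = wf u v := rfl

theorem charP_two [Fintype F] (hF : Fintype.card F = 16) : CharP F 2 := by
  have h : (Fintype.card F : F) = 0 := Nat.cast_card_eq_zero F
  rw [hF] at h
  have h1 : (2 : F) ^ 4 = 0 := by
    have : (2 : F) ^ 4 = ((16 : ℕ) : F) := by norm_num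
    rw [this, h]
  exact CharTwo.of_one_ne_zero_of_two_eq_zero one_ne_zero (pow_eq_zero_iff (by norm_num) |>.1 h1)

section

variable {K L : Type*} [Field K] [AddCommGroup L] [Module K L]

/-- the conjugate representation -/
def cj (ρ : Representation K (SL2 F) L) (s : SL2 F) : Representation K (SL2 F) L :=
  MonoidHom.comp ρ (MulAut.conj s).toMonoidHom

theorem cj_apply (ρ : Representation K (SL2 F) L) (s g : SL2 F) : cj ρ s g = ρ (s * g * s⁻¹) := rfl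

theorem cj_pow [CharP F 2] (ρ : Representation K (SL2 F) L) {s y : SL2 F} {w : F} (h : s * y0 w = y * s) (k : ℕ) :
    cj ρ s (y0 w ^ k) = ρ (y ^ k) := by
  have h1 : s * y0 w * s⁻¹ = y := by rw [h, mul_inv_cancel_right]
  rw [cj_apply, ← conj_pow, h1]

/-- the trace is a class function -/
theorem tr2_conj (s g : SL2 F) : tr2 (s * g * s⁻¹) = tr2 g := by
  rw [← tr2_eq, ← tr2_eq]
  change Matrix.trace (s.1 * g.1 * s⁻¹.1) = _
  rw [Matrix.trace_mul_comm, ← Matrix.mul_assoc]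
  have : s⁻¹.1 * s.1 = 1 := congrArg Subtype.val (inv_mul_cancel s)
  rw [this, Matrix.one_mul]

/-- the relations in the form of helper701, for an element `y` with trace `w` -/
theorem rel [Fintype F] [CharP F 2] (hF : Fintype.card F = 16) (ρ : Representation K (SL2 F) L) {y t0 : SL2 F}
    (h2 : t0 * t0 = 1) (h1 : t0 ≠ 1) (hty : t0 * y * t0 = y⁻¹) {w : F} (hw : w ≠ 0) (htr : tr2 y = w) {c0 : L}
    (H1 : ∀ s, s * t0 = t0 * s → ρ s c0 = c0) (R : F → Prop) [DecidablePred R]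
    (H3 : ∑ k ∈ range 17, (if R (tr2 (y ^ k)) then ρ (y ^ k) c0 else 0) = 0) :
    ∃ (s : SL2 F) (c : F → F → L), c 0 0 = 0 ∧ s * y0 w = y * s ∧ s * t00 w = t0 * s ∧
      (∀ g, c (act g (w ^ 8, 0)).1 (act g (w ^ 8, 0)).2 = cj ρ s g c0) ∧
      ∀ g : SL2 F, ∑ k ∈ range 17, (if R (wf (ob w 0) (ob w k)) then c (act g (ob w k)).1 (act g (ob w k)).2 else 0) = 0 := by
  obtain ⟨s, hs1, hs2⟩ := exists_conj hF h2 h1 hty hw htr
  have e2 : s * t00 w * s⁻¹ = t0 := by rw [hs2, mul_inv_cancel_right]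
  obtain ⟨c, c00, hc⟩ := exists_c hw (cj ρ s) c0 (by
    intro g hg
    rw [cj_apply]
    apply H1
    rw [← e2]
    have : s * g * s⁻¹ * (s * t00 w * s⁻¹) = s * (g * t00 w) * s⁻¹ := by group
    rw [this, hg]
    group)
  refine ⟨s, c, c00, hs1, hs2, hc, fun g => rel3 hF hc R ?_ g⟩
  refine Eq.trans (Finset.sum_congr rfl fun k _ => ?_) H3
  have e3 : Matrix.trace (y0 w ^ k).1 = tr2 (y ^ k) := by
    have e1 : s * y0 w * s⁻¹ = y := by rw [hs1, mul_inv_cancel_right]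
    rw [tr2_eq, ← tr2_conj s, ← conj_pow, e1]
  rw [e3, cj_pow ρ hs1]

/-- type R, the trace of `y` is a root of `X⁴ + X + 1` -/
theorem coreR [Fintype F] [CharP F 2] [DecidableEq F] (hF : Fintype.card F = 16) (hL : ∀ x : L, x + x = 0)
    (br : L →ₗ[K] L →ₗ[K] L) (alt : ∀ x, br x x = 0) (jac : ∀ x y z, br x (br y z) = br (br x y) z + br y (br x z))
    (ρ : Representation K (SL2 F) L) (hρ : ∀ s u v, ρ s (br u v) = br (ρ s u) (ρ s v)) {y t0 : SL2 F}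
    (h2 : t0 * t0 = 1) (h1 : t0 ≠ 1) (hty : t0 * y * t0 = y⁻¹) (hw : tr2 y ^ 4 = tr2 y + 1) {c0 : L}
    (H1 : ∀ s, s * t0 = t0 * s → ρ s c0 = c0)
    (H2 : ∀ s, (s * t0 * s⁻¹) * t0 = t0 * (s * t0 * s⁻¹) → br c0 (ρ s c0) = 0)
    (H3 : ∑ k ∈ range 17, (if tr2 (y ^ k) ^ 4 = tr2 (y ^ k) + 1 then ρ (y ^ k) c0 else 0) = 0)
    (H4 : ∃ Z : F →+ L, Z 1 = ∑ k ∈ range 17, ρ (y ^ k) c0 ∧
      ∀ k l : ℕ, br (ρ (y ^ k) c0) (ρ (y ^ l) c0) = Z (tr2 (y ^ k * (y ^ l)⁻¹) ^ 2)) :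
    ∃ A : Submodule K L, Module.finrank K A ≤ 49 ∧ (∀ u ∈ A, ∀ v ∈ A, br u v ∈ A) ∧ ∀ s, ρ s c0 ∈ A := by
  obtain ⟨w, hw'⟩ : ∃ w, w = tr2 y := ⟨_, rfl⟩
  have hw4 : w ^ 4 = w + 1 := by rw [hw', hw]
  have hw0 : w ≠ 0 := by
    intro h
    rw [h] at hw4
    simp at hw4
  obtain ⟨s, c, c00, hs1, hs2, hc, h3⟩ := rel hF ρ h2 h1 hty hw0 hw'.symm H1 (fun x => x ^ 4 = x + 1) H3
  have e1 : s * y0 w * s⁻¹ = y := by rw [hs1, mul_inv_cancel_right]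
  have e2 : s * t00 w * s⁻¹ = t0 := by rw [hs2, mul_inv_cancel_right]
  have hρ' : ∀ g u v, cj ρ s g (br u v) = br (cj ρ s g u) (cj ρ s g v) := fun g u v => hρ _ u v
  obtain ⟨A, hA1, hA2, hA3⟩ := Cfsg.Agent.H701.L16.uniR hF (fun x => CharTwo.add_self_eq_zero x) hw4 hL br alt jac c c00
    (by
      intro a b e d hd
      have := h3 (mk hd)
      simp only [act_mk] at this
      simp only [wf_701, ob_701, Cfsg.Agent.H701.L16.cg, Cfsg.Agent.H701.L16.gv]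
      exact this)
    (by
      intro a b e d hd
      have h5 := rel2 hF hc (fun u v => br u v) hρ' (by
        obtain ⟨Z, hZ1, hZ⟩ := H4
        refine ⟨Z, ?_, ?_⟩
        · rw [hZ1]
          exact Finset.sum_congr rfl fun k _ => by rw [cj_pow ρ hs1]
        · intro k _ l _
          rw [cj_pow ρ hs1, cj_pow ρ hs1, hZ, tr2_eq]
          congr 2
          have e4 : s * (y0 w ^ k * (y0 w ^ l)⁻¹) * s⁻¹ = y ^ k * (y ^ l)⁻¹ := by
            rw [← e1, conj_pow, conj_pow]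
            group
          rw [← e4, tr2_conj]) (mk hd)
      simp only [act_mk] at h5
      simp only [wf_701, ob_701, Cfsg.Agent.H701.L16.cg, Cfsg.Agent.H701.L16.gv]
      exact h5)
    (by
      intro x y' l
      refine rel1 hw0 c00 hc (fun u v => br u v) hρ' (fun u => map_zero (br u)) ?_ x y' l
      intro g hg
      refine H2 (s * g * s⁻¹) ?_
      have e3 : s * g * s⁻¹ * t0 * (s * g * s⁻¹)⁻¹ = s * (g * t00 w * g⁻¹) * s⁻¹ := by rw [← e2]; group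
      rw [e3, ← e2]
      have e5 : s * (g * t00 w * g⁻¹) * s⁻¹ * (s * t00 w * s⁻¹) = s * (g * t00 w * g⁻¹ * t00 w) * s⁻¹ := by group
      rw [e5, hg]
      group)
  refine ⟨A, hA1, hA3, fun g => ?_⟩
  have h5 : cj ρ s (s⁻¹ * g * s) c0 = ρ g c0 := by
    rw [cj_apply]
    congr 2
    group
  rw [← h5, ← hc]
  exact hA2 _ _

theorem det_two [CharP F 2] (g : SL2 F) : g.1 0 0 * g.1 1 1 + g.1 0 1 * g.1 1 0 = 1 := by
  have h2 : (1 : F) + 1 = 0 := CharTwo.add_self_eq_zero 1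
  have h := det_eq g
  linear_combination h + g.1 0 1 * g.1 1 0 * h2

/-- type N, the trace of `y` is a root of `X⁴ + X + 1` -/
theorem coreN [Fintype F] [CharP F 2] [DecidableEq F] (hF : Fintype.card F = 16) (hL : ∀ x : L, x + x = 0)
    (ρ : Representation K (SL2 F) L) {y t0 : SL2 F}
    (h2 : t0 * t0 = 1) (h1 : t0 ≠ 1) (hty : t0 * y * t0 = y⁻¹) (hw : tr2 y ^ 4 = tr2 y + 1) {c0 : L}
    (H1 : ∀ s, s * t0 = t0 * s → ρ s c0 = c0)
    (H3 : ∑ k ∈ range 17, (if tr2 (y ^ k) ^ 4 + tr2 (y ^ k) ^ 3 + tr2 (y ^ k) ^ 2 + tr2 (y ^ k) + 1 = 0 then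
      ρ (y ^ k) c0 else 0) = 0) (g : SL2 F) :
    ρ g (∑ k ∈ range 17, ρ (y ^ k) c0) = ∑ k ∈ range 17, ρ (y ^ k) c0 := by
  obtain ⟨w, hw'⟩ : ∃ w, w = tr2 y := ⟨_, rfl⟩
  have hw4 : w ^ 4 = w + 1 := by rw [hw', hw]
  have hw0 : w ≠ 0 := by
    intro h
    rw [h] at hw4
    simp at hw4
  obtain ⟨s, c, c00, hs1, hs2, hc, h3⟩ := rel hF ρ h2 h1 hty hw0 hw'.symm H1
    (fun x => x ^ 4 + x ^ 3 + x ^ 2 + x + 1 = 0) H3
  have hr : Cfsg.Agent.H701.L16.RN w c := by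
    intro a b e d hd
    have := h3 (mk hd)
    simp only [act_mk] at this
    simp only [wf_701, ob_701, Cfsg.Agent.H701.L16.cg, Cfsg.Agent.H701.L16.gv]
    exact this
  have key : ∀ g : SL2 F, cj ρ s g (∑ k ∈ range 17, ρ (y ^ k) c0) = cj ρ s 1 (∑ k ∈ range 17, ρ (y ^ k) c0) := by
    intro g
    have h5 := Cfsg.Agent.H952.L16.uniN hF (fun x => CharTwo.add_self_eq_zero x) hw4 hL c hr (g.1 0 0) (g.1 0 1)
      (g.1 1 0) (g.1 1 1) (det_two g)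
    have h6 : ∀ g : SL2 F, ∑ k ∈ Finset.range 17, Cfsg.Agent.H701.L16.cg c (g.1 0 0) (g.1 0 1) (g.1 1 0) (g.1 1 1)
        (Cfsg.Agent.H701.L16.ob w k) = cj ρ s g (∑ k ∈ range 17, ρ (y ^ k) c0) := by
      intro g
      have h7 := sum_ob hc g
      have h8 : ∑ k ∈ range 17, cj ρ s (y0 w ^ k) c0 = ∑ k ∈ range 17, ρ (y ^ k) c0 :=
        Finset.sum_congr rfl fun k _ => by rw [cj_pow ρ hs1]
      rw [← h8, ← h7]
      exact Finset.sum_congr rfl fun k _ => by rw [ob_701]; rfl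
    have h9 := h6 1
    have e : ((1 : SL2 F).1 0 0 = 1) ∧ ((1 : SL2 F).1 0 1 = 0) ∧ ((1 : SL2 F).1 1 0 = 0) ∧ ((1 : SL2 F).1 1 1 = 1) := by
      refine ⟨?_, ?_, ?_, ?_⟩ <;> simp
    rw [e.1, e.2.1, e.2.2.1, e.2.2.2] at h9
    rw [← h6 g, ← h9, h5]
  have h5 := key (s⁻¹ * g * s)
  rw [map_one, Module.End.one_apply, cj_apply] at h5
  have e : s * (s⁻¹ * g * s) * s⁻¹ = g := by group
  rw [e] at h5
  exact h5

/-! ### the final forms -/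

theorem ne_one_of_ord {G : Type*} [Group G] {y : G} (hy : orderOf y = 17) : y ≠ 1 := by
  intro h
  rw [h, orderOf_one] at hy
  norm_num at hy

theorem inv_cube {G : Type*} [Group G] {y t : G} (h2 : t * t = 1) (h : t * y * t = y⁻¹) :
    t * y ^ 3 * t = (y ^ 3)⁻¹ := by
  have ht : t⁻¹ = t := inv_eq_of_mul_eq_one_left h2
  have h' : t * y * t⁻¹ = y⁻¹ := by rw [ht]; exact h
  calc t * y ^ 3 * t = t * y ^ 3 * t⁻¹ := by rw [ht]
    _ = (t * y * t⁻¹) ^ 3 := by rw [conj_pow]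
    _ = (y ^ 3)⁻¹ := by rw [h', inv_pow]

/-- the cube in the second case -/
theorem cube_case [CharP F 2] {y : SL2 F} (h : tr2 y ^ 4 + tr2 y ^ 3 + tr2 y ^ 2 + tr2 y + 1 = 0) :
    tr2 (y ^ 3) ^ 4 = tr2 (y ^ 3) + 1 := by
  have h2 : (1 : F) + 1 = 0 := CharTwo.add_self_eq_zero 1
  have hd := det_eq y
  obtain ⟨T, hT⟩ : ∃ T, T = tr2 y := ⟨_, rfl⟩
  have hT' : T = y.1 0 0 + y.1 1 1 := hT
  rw [← hT] at h
  have h3 : tr2 (y ^ 3) = T ^ 3 + T := by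
    have e : (y ^ 3).1 = y.1 * y.1 * y.1 := by
      rw [Matrix.SpecialLinearGroup.coe_pow]; noncomm_ring
    have e1 : tr2 (y ^ 3) = (y.1 * y.1 * y.1) 0 0 + (y.1 * y.1 * y.1) 1 1 := by rw [← e]; rfl
    rw [e1, hT']
    simp only [Matrix.mul_apply, Fin.sum_univ_two]
    linear_combination (-3 * (y.1 0 0 + y.1 1 1)) * hd - 2 * (y.1 0 0 + y.1 1 1) * h2
  rw [h3]
  have h5 : T ^ 5 = 1 := by linear_combination (T - 1) * h
  linear_combination (T ^ 7 + T ^ 2) * h5 + h + (2 * T ^ 10 + 3 * T ^ 8 + 2 * T ^ 6 - T ^ 3 - T - 1) * h2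

/-- **BRIDGE, type R** -/
theorem bridgeR [Fintype F] (hF : Fintype.card F = 16) (hL : ∀ x : L, x + x = 0)
    (br : L →ₗ[K] L →ₗ[K] L) (alt : ∀ x, br x x = 0) (jac : ∀ x y z, br x (br y z) = br (br x y) z + br y (br x z))
    (ρ : Representation K (SL2 F) L) (hρ : ∀ s u v, ρ s (br u v) = br (ρ s u) (ρ s v)) {y t0 : SL2 F}
    (hy : orderOf y = 17) (h2 : t0 * t0 = 1) (h1 : t0 ≠ 1) (hty : t0 * y * t0 = y⁻¹) {c0 : L}
    (H1 : ∀ s, s * t0 = t0 * s → ρ s c0 = c0)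
    (H2 : ∀ s, (s * t0 * s⁻¹) * t0 = t0 * (s * t0 * s⁻¹) → br c0 (ρ s c0) = 0)
    (H3 : ∀ Sk : Finset ℕ, (∀ k, k ∈ Sk ↔ k < 17 ∧ tr2 (y ^ k) ^ 4 = tr2 (y ^ k) + 1) → ∑ k ∈ Sk, ρ (y ^ k) c0 = 0)
    (H4 : ∃ Z : F →+ L, Z 1 = ∑ k ∈ range 17, ρ (y ^ k) c0 ∧
      ∀ k l : ℕ, br (ρ (y ^ k) c0) (ρ (y ^ l) c0) = Z (tr2 (y ^ k * (y ^ l)⁻¹) ^ 2)) :
    ∃ A : Submodule K L, Module.finrank K A ≤ 49 ∧ (∀ u ∈ A, ∀ v ∈ A, br u v ∈ A) ∧ ∀ s, ρ s c0 ∈ A := by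
  classical
  have hch := charP_two hF
  have hy17 : y ^ 17 = 1 := by rw [← hy]; exact pow_orderOf_eq_one y
  have H3' : ∑ k ∈ range 17, (if tr2 (y ^ k) ^ 4 = tr2 (y ^ k) + 1 then ρ (y ^ k) c0 else 0) = 0 := by
    rw [← Finset.sum_filter]
    exact H3 _ fun k => by rw [Finset.mem_filter, Finset.mem_range]
  rcases tr_17 hy17 (ne_one_of_ord hy) with hw | hw
  · exact coreR hF hL br alt jac ρ hρ h2 h1 hty hw H1 H2 H3' H4
  · refine coreR hF hL br alt jac ρ hρ (y := y ^ 3) h2 h1 ?_ (cube_case hw) H1 H2 ?_ ?_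
    · exact inv_cube h2 hty
    · rw [sum_cube hy17 (fun g => if tr2 g ^ 4 = tr2 g + 1 then ρ g c0 else 0)]
      exact H3'
    · obtain ⟨Z, hZ1, hZ⟩ := H4
      refine ⟨Z, ?_, fun k l => ?_⟩
      · rw [hZ1, sum_cube hy17 (fun g => ρ g c0)]
      · rw [← pow_mul, ← pow_mul]
        exact hZ _ _

/-- **BRIDGE, type N** -/
theorem bridgeN [Fintype F] (hF : Fintype.card F = 16) (hL : ∀ x : L, x + x = 0)
    (ρ : Representation K (SL2 F) L) {y t0 : SL2 F}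
    (hy : orderOf y = 17) (h2 : t0 * t0 = 1) (h1 : t0 ≠ 1) (hty : t0 * y * t0 = y⁻¹) {c0 : L}
    (H1 : ∀ s, s * t0 = t0 * s → ρ s c0 = c0)
    (H3 : ∀ Sk : Finset ℕ, (∀ k, k ∈ Sk ↔ k < 17 ∧ tr2 (y ^ k) ^ 4 + tr2 (y ^ k) ^ 3 + tr2 (y ^ k) ^ 2 +
      tr2 (y ^ k) + 1 = 0) → ∑ k ∈ Sk, ρ (y ^ k) c0 = 0) (g : SL2 F) :
    ρ g (∑ k ∈ range 17, ρ (y ^ k) c0) = ∑ k ∈ range 17, ρ (y ^ k) c0 := by
  classical
  have hch := charP_two hF
  have hy17 : y ^ 17 = 1 := by rw [← hy]; exact pow_orderOf_eq_one y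
  have H3' : ∑ k ∈ range 17, (if tr2 (y ^ k) ^ 4 + tr2 (y ^ k) ^ 3 + tr2 (y ^ k) ^ 2 + tr2 (y ^ k) + 1 = 0 then
      ρ (y ^ k) c0 else 0) = 0 := by
    rw [← Finset.sum_filter]
    exact H3 _ fun k => by rw [Finset.mem_filter, Finset.mem_range]
  rcases tr_17 hy17 (ne_one_of_ord hy) with hw | hw
  · exact coreN hF hL ρ h2 h1 hty hw H1 H3' g
  · have h5 := coreN hF hL ρ (y := y ^ 3) h2 h1 (inv_cube h2 hty) (cube_case hw) H1 (by
      rw [sum_cube hy17 (fun g => if tr2 g ^ 4 + tr2 g ^ 3 + tr2 g ^ 2 + tr2 g + 1 = 0 then ρ g c0 else 0)]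
      exact H3') g
    rw [sum_cube hy17 (fun g => ρ g c0)] at h5
    exact h5

end

end Cfsg.Agent.H248.L16
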