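import Cfsg.Agent.H248.L16.Bridge

/-!
# S5916 (`i = 1`): all dihedral subgroups of order `34` of `SL₂(16)` in standard position (helper248)
-/

set_option autoImplicit false

namespace Cfsg.Agent.H248.L16

open Matrix Finset

local notation "SL2" F => Matrix.SpecialLinearGroup (Fin 2) F

variable {F : Type} [Field F]

theorem inv_entries (s : SL2 F) : s⁻¹.1 = !![s.1 1 1, -s.1 0 1; -s.1 1 0, s.1 0 0] := by
  rw [Matrix.SpecialLinearGroup.coe_inv, Matrix.adjugate_fin_two]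

/-- an involution has equal diagonal entries -/
theorem diag_of_sq [CharP F 2] {s : SL2 F} (h : s * s = 1) : s.1 0 0 = s.1 1 1 := by
  have h1 : s = s⁻¹ := eq_inv_of_mul_eq_one_left h
  have h2 := congrFun (congrFun (congrArg Subtype.val h1) 0) 0
  rw [inv_entries] at h2
  simpa using h2

/-- the trace of the inverse -/
theorem sq_eq_pow16 [Fintype F] (hF : Fintype.card F = 16) (a : F) : (a ^ 8) ^ 2 = a := by
  rw [← pow_mul]
  have := FiniteField.pow_card a
  rw [hF] at this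
  exact this

/-- conjugation to standard position -/
theorem exists_conj [Fintype F] [CharP F 2] (hF : Fintype.card F = 16) {y t : SL2 F} (ht : t * t = 1) (ht1 : t ≠ 1)
    (hyt : t * y * t = y⁻¹) {w : F} (hw : w ≠ 0) (htr : y.1 0 0 + y.1 1 1 = w) :
    ∃ s : SL2 F, s * y0 w = y * s ∧ s * t00 w = t * s := by
  have h2 : (1 : F) + 1 = 0 := CharTwo.add_self_eq_zero 1
  have h16 : w ^ 16 = w := by rw [← hF]; exact FiniteField.pow_card w
  obtain ⟨p, hp⟩ : ∃ p, p = y.1 0 0 := ⟨_, rfl⟩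
  obtain ⟨q, hq⟩ : ∃ q, q = y.1 0 1 := ⟨_, rfl⟩
  obtain ⟨r, hr⟩ : ∃ r, r = y.1 1 0 := ⟨_, rfl⟩
  obtain ⟨u, hu⟩ : ∃ u, u = y.1 1 1 := ⟨_, rfl⟩
  obtain ⟨a, ha⟩ : ∃ a, a = t.1 0 0 := ⟨_, rfl⟩
  obtain ⟨b, hb⟩ : ∃ b, b = t.1 0 1 := ⟨_, rfl⟩
  obtain ⟨c, hc⟩ : ∃ c, c = t.1 1 0 := ⟨_, rfl⟩
  have ha' : t.1 1 1 = a := by rw [ha]; exact (diag_of_sq ht).symm
  have hdy := det_eq y
  rw [← hp, ← hq, ← hr, ← hu] at hdy
  have hdt := det_eq t
  rw [ha', ← ha, ← hb, ← hc] at hdt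
  rw [← hp, ← hu] at htr
  -- the product of `t` and `y` is an involution
  have hty : (t * y) * (t * y) = 1 := by
    rw [← mul_assoc, mul_assoc t y t, ← mul_assoc, hyt, inv_mul_cancel]
  have h3 := diag_of_sq hty
  have h4 : a * p + b * r = c * q + a * u := by
    have e1 : (t * y).1 0 0 = a * p + b * r := by
      change (t.1 * y.1) 0 0 = _
      rw [Matrix.mul_apply, Fin.sum_univ_two, ← ha, ← hb, ← hp, ← hr]
    have e2 : (t * y).1 1 1 = c * q + a * u := by
      change (t.1 * y.1) 1 1 = _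
      rw [Matrix.mul_apply, Fin.sum_univ_two, ← hc, ha', ← hq, ← hu]
    rw [← e1, ← e2]
    exact h3
  obtain ⟨m, hm⟩ : ∃ m, m = b ^ 8 := ⟨_, rfl⟩
  obtain ⟨n, hn⟩ : ∃ n, n = c ^ 8 := ⟨_, rfl⟩
  have hm2 : m ^ 2 = b := by rw [hm]; exact sq_eq_pow16 hF b
  have hn2 : n ^ 2 = c := by rw [hn]; exact sq_eq_pow16 hF c
  have hmn : m * n = 1 + a := by
    have h5 : (m * n + (1 + a)) ^ 2 = 0 := by
      linear_combination m ^ 2 * hn2 + c * hm2 - hdt + (m * n * (1 + a) + a + a ^ 2) * h2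
    have h6 : m * n + (1 + a) = 0 := pow_eq_zero_iff (two_ne_zero) |>.1 h5
    linear_combination h6 - (1 + a) * h2
  have hwf : (p * m + q * n) * n + (r * m + u * n) * m = w := by
    linear_combination (p + u) * hmn + q * hn2 + r * hm2 + htr + h4 + (q * c + u * a) * h2
  obtain ⟨e, he⟩ : ∃ e, e = (w ^ 8)⁻¹ := ⟨_, rfl⟩
  have hew : e * w ^ 8 = 1 := by rw [he]; exact inv_mul_cancel₀ (pow_ne_zero 8 hw)
  have hew2 : e ^ 2 * w = 1 := by
    have h5 : e ^ 2 * w ^ 16 = 1 := by linear_combination (e * w ^ 8 + 1) * hew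
    rw [h16] at h5
    exact h5
  refine ⟨⟨!![e * m, e * (p * m + q * n); e * n, e * (r * m + u * n)], ?_⟩, ?_, ?_⟩
  · rw [Matrix.det_fin_two_of]
    linear_combination e ^ 2 * hwf + hew2 - e ^ 2 * n * (p * m + q * n) * h2
  · apply Subtype.ext
    have hy : y.1 = !![p, q; r, u] := by
      rw [hp, hq, hr, hu]; exact Matrix.eta_fin_two y.1
    change !![e * m, e * (p * m + q * n); e * n, e * (r * m + u * n)] * !![0, 1; 1, w] =
      y.1 * !![e * m, e * (p * m + q * n); e * n, e * (r * m + u * n)]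
    rw [hy]
    ext i j
    fin_cases i <;> fin_cases j <;> simp [Matrix.mul_apply, Fin.sum_univ_two]
    · ring
    · linear_combination (-(e * (p * m + q * n))) * htr + e * m * hdy + (e * m) * h2
    · ring
    · linear_combination (-(e * (r * m + u * n))) * htr + e * n * hdy + (e * n) * h2
  · apply Subtype.ext
    have hy : t.1 = !![a, b; c, a] := by
      have h5 := Matrix.eta_fin_two t.1
      rw [ha', ← ha, ← hb, ← hc] at h5
      exact h5
    change !![e * m, e * (p * m + q * n); e * n, e * (r * m + u * n)] * !![1, w; 0, 1] =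
      t.1 * !![e * m, e * (p * m + q * n); e * n, e * (r * m + u * n)]
    rw [hy]
    ext i j
    fin_cases i <;> fin_cases j <;> simp [Matrix.mul_apply, Fin.sum_univ_two]
    · linear_combination e * (-m * hmn + n * hm2 - m * a * h2)
    · linear_combination e * (-m * hwf + (p * m + q * n) * hmn + (r * m + u * n) * hm2 + (p * m + q * n) * h2)
    · linear_combination e * (-n * hmn + m * hn2 - a * n * h2)
    · linear_combination e * (-n * hwf + (r * m + u * n) * hmn + (p * m + q * n) * hn2 + (r * m + u * n) * h2)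

/-- reindexing -/
theorem sum_cube {G M : Type*} [Group G] [AddCommMonoid M] {y : G} (hy : y ^ 17 = 1) (φ : G → M) :
    ∑ k ∈ range 17, φ ((y ^ 3) ^ k) = ∑ k ∈ range 17, φ (y ^ k) := by
  refine Finset.sum_nbij' (fun k => 3 * k % 17) (fun k => 6 * k % 17) ?_ ?_ ?_ ?_ ?_
  · intro k _; exact Finset.mem_range.2 (Nat.mod_lt _ (by norm_num))
  · intro k _; exact Finset.mem_range.2 (Nat.mod_lt _ (by norm_num))
  · intro k hk
    have := Finset.mem_range.1 hk
    omega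
  · intro k hk
    have := Finset.mem_range.1 hk
    omega
  · intro k _
    congr 1
    rw [← pow_mul, ← Nat.div_add_mod (3 * k) 17, pow_add, pow_mul, hy, one_pow, one_mul]
    simp

/-- trace -/
def tr2 (s : SL2 F) : F := s.1 0 0 + s.1 1 1

theorem tr2_eq (s : SL2 F) : Matrix.trace s.1 = tr2 s := Matrix.trace_fin_two s.1

/-- squares in the plane spanned by `1` and `A` -/
theorem sq_lin [CharP F 2] {A : Matrix (Fin 2) (Fin 2) F} {T : F} (hA : A * A = T • A + 1) (a b : F) :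
    (a • A + b • (1 : Matrix (Fin 2) (Fin 2) F)) * (a • A + b • (1 : Matrix (Fin 2) (Fin 2) F)) =
      (a ^ 2 * T) • A + (a ^ 2 + b ^ 2) • (1 : Matrix (Fin 2) (Fin 2) F) := by
  have h2 : (1 : F) + 1 = 0 := CharTwo.add_self_eq_zero 1
  rw [add_mul, mul_add, mul_add, Matrix.smul_mul, Matrix.smul_mul, Matrix.mul_smul, Matrix.mul_smul, hA,
    Matrix.smul_mul, Matrix.mul_smul, Matrix.smul_mul, Matrix.mul_smul, Matrix.mul_one, Matrix.one_mul, Matrix.one_mul]
  ext i j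
  simp only [Matrix.add_apply, Matrix.smul_apply, smul_eq_mul]
  linear_combination (a * b * A i j) * h2

/-- the traces of elements of order `17` -/
theorem tr_17 [CharP F 2] {y : SL2 F} (hy : y ^ 17 = 1) (hy1 : y ≠ 1) :
    tr2 y ^ 4 = tr2 y + 1 ∨ tr2 y ^ 4 + tr2 y ^ 3 + tr2 y ^ 2 + tr2 y + 1 = 0 := by
  have h2 : (1 : F) + 1 = 0 := CharTwo.add_self_eq_zero 1
  obtain ⟨T, hT⟩ : ∃ T, T = tr2 y := ⟨_, rfl⟩
  rw [← hT]
  have hT' : T = y.1 0 0 + y.1 1 1 := hT
  have hd := det_eq y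
  have hA : y.1 * y.1 = T • y.1 + 1 := by
    ext i j
    fin_cases i <;> fin_cases j <;> simp [Matrix.mul_apply, Fin.sum_univ_two, hT']
    · linear_combination -hd - h2
    · ring
    · ring
    · linear_combination -hd - h2
  have h4 := sq_lin hA T 1
  rw [one_smul, ← hA] at h4
  have h8 := sq_lin hA (T ^ 2 * T) (T ^ 2 + 1 ^ 2)
  rw [← h4] at h8
  have h16 := sq_lin hA ((T ^ 2 * T) ^ 2 * T) ((T ^ 2 * T) ^ 2 + (T ^ 2 + 1 ^ 2) ^ 2)
  rw [← h8] at h16
  have h17 : (((T ^ 2 * T) ^ 2 * T) ^ 2 * T * T + (((T ^ 2 * T) ^ 2 * T) ^ 2 +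
      ((T ^ 2 * T) ^ 2 + (T ^ 2 + 1 ^ 2) ^ 2) ^ 2)) • y.1 + (((T ^ 2 * T) ^ 2 * T) ^ 2 * T) •
      (1 : Matrix (Fin 2) (Fin 2) F) = 1 := by
    have h5 : (y.1) ^ 17 = 1 := by
      have := congrArg Subtype.val hy
      rwa [Matrix.SpecialLinearGroup.coe_pow] at this
    rw [show (17 : ℕ) = 16 + 1 from rfl, pow_succ, show (y.1) ^ 16 = y.1 * y.1 * (y.1 * y.1) * (y.1 * y.1 * (y.1 * y.1)) *
      (y.1 * y.1 * (y.1 * y.1) * (y.1 * y.1 * (y.1 * y.1))) by noncomm_ring, h16, add_mul, Matrix.smul_mul, hA,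
      Matrix.smul_mul, Matrix.one_mul, smul_add, smul_smul] at h5
    rw [add_smul]
    refine Eq.trans ?_ h5
    abel
  obtain ⟨Q, hQ⟩ : ∃ Q, Q = T ^ 8 + T ^ 7 + T ^ 6 + T ^ 4 + 1 := ⟨_, rfl⟩
  have hQ2 : ((T ^ 2 * T) ^ 2 * T) ^ 2 * T * T + (((T ^ 2 * T) ^ 2 * T) ^ 2 +
      ((T ^ 2 * T) ^ 2 + (T ^ 2 + 1 ^ 2) ^ 2) ^ 2) = Q ^ 2 := by
    rw [hQ]
    linear_combination (-T ^ 15 - T ^ 14 - T ^ 13 - T ^ 12 - T ^ 11 + T ^ 8 - T ^ 7 + 2 * T ^ 6 + 2 * T ^ 4 + 2 * T ^ 2) * h2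
  rw [hQ2] at h17
  have hQ0 : Q = 0 := by
    by_contra h0
    have h1 : Q ^ 2 ≠ 0 := pow_ne_zero 2 h0
    have e01 := congrFun (congrFun h17 0) 1
    have e10 := congrFun (congrFun h17 1) 0
    have e00 := congrFun (congrFun h17 0) 0
    have e11 := congrFun (congrFun h17 1) 1
    simp only [Matrix.add_apply, Matrix.smul_apply, smul_eq_mul, Matrix.one_apply_eq,
      Matrix.one_apply_ne (show (0 : Fin 2) ≠ 1 by decide), Matrix.one_apply_ne (show (1 : Fin 2) ≠ 0 by decide),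
      mul_zero, mul_one, add_zero] at e01 e10 e00 e11
    have g01 : y.1 0 1 = 0 := (mul_eq_zero.1 e01).resolve_left h1
    have g10 : y.1 1 0 = 0 := (mul_eq_zero.1 e10).resolve_left h1
    have g : y.1 0 0 = y.1 1 1 := by
      apply mul_left_cancel₀ h1
      linear_combination e00 - e11
    have g00 : y.1 0 0 = 1 := by
      rw [g01, zero_mul, sub_zero, ← g] at hd
      have h5 : (y.1 0 0 + 1) ^ 2 = 0 := by linear_combination hd + (y.1 0 0 + 1) * h2
      have h6 := pow_eq_zero_iff (two_ne_zero) |>.1 h5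
      linear_combination h6 - h2
    apply hy1
    apply Subtype.ext
    rw [Matrix.SpecialLinearGroup.coe_one]
    ext i j
    fin_cases i <;> fin_cases j
    · simpa using g00
    · simpa using g01
    · simpa using g10
    · simpa using g ▸ g00
  have h5 : (T ^ 4 + T + 1) * (T ^ 4 + T ^ 3 + T ^ 2 + T + 1) = 0 := by
    linear_combination hQ0 - hQ + (T ^ 5 + T ^ 4 + T ^ 3 + T ^ 2 + T) * h2
  rcases mul_eq_zero.1 h5 with h6 | h6
  · left
    linear_combination h6 - (T + 1) * h2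
  · exact Or.inr h6

end Cfsg.Agent.H248.L16
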